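import Mathlib
import Cfsg.Agent.Lib.HSubgroup.Basic
import Cfsg.Agent.Lib.PronormAlt.Basic

/-!
# A Sylow `2`-subgroup of a symmetric group has no odd-order normalizing element

The proof goes through the set `W` of transpositions in the Sylow subgroup `T`.  The transpositions
in `T` form a perfect (or almost perfect) matching `p`; `T` acts on `W` by conjugation with kernel
of order at most `2 ^ |W|`, so its image is a Sylow `2`-subgroup of `Perm W`, and induction applies.
-/

set_option autoImplicit false
set_option linter.unusedSectionVars false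

namespace Cfsg.Agent.Lib.PronormAlt.SymSylow

open Equiv Equiv.Perm Subgroup

universe u

variable {X : Type u} [Fintype X] [DecidableEq X]

theorem conj_swap (g : Perm X) (a b : X) : g * swap a b * g⁻¹ = swap (g a) (g b) :=
  (Equiv.swap_apply_apply g a b).symm

/-- Two transpositions sharing a point in a `2`-group are equal. -/
theorem swap_unique {T : Subgroup (Perm X)} (hT : IsPGroup 2 T) {a b c : X} (hab : a ≠ b)
    (hac : a ≠ c) (h1 : swap a b ∈ T) (h2 : swap a c ∈ T) : b = c := by
  by_contra hbc
  have h3 := isThreeCycle_swap_mul_swap_same hab hac hbc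
  have hmem : swap a b * swap a c ∈ T := T.mul_mem h1 h2
  obtain ⟨k, hk⟩ := hT ⟨_, hmem⟩
  have h5 : (swap a b * swap a c) ^ (2 ^ k) = 1 := by simpa using congrArg Subtype.val hk
  have h4 := orderOf_dvd_of_pow_eq_one h5
  rw [h3.orderOf] at h4
  have h6 := Nat.Prime.dvd_of_dvd_pow Nat.prime_three h4
  omega

/-- Every finite type has an involution with at most one fixed point. -/
theorem exists_involution : ∃ ι : Perm X, (∀ y, ι (ι y) = y) ∧ ∀ a b, ι a = a → ι b = b → a = b := by
  set n := Fintype.card X with hn
  have hcard : Fintype.card X = Fintype.card ((Fin (n / 2) × Bool) ⊕ Fin (n % 2)) := by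
    simp only [Fintype.card_sum, Fintype.card_prod, Fintype.card_fin, Fintype.card_bool]
    omega
  let e : X ≃ (Fin (n / 2) × Bool) ⊕ Fin (n % 2) := Fintype.equivOfCardEq hcard
  let ι' : Perm ((Fin (n / 2) × Bool) ⊕ Fin (n % 2)) :=
    Equiv.sumCongr (Equiv.prodCongr (Equiv.refl _) Equiv.boolNot) (Equiv.refl _)
  have hι' : ∀ y, ι' (ι' y) = y := by
    rintro (⟨i, b⟩ | j) <;> simp [ι']
  have hfix : ∀ y, ι' y = y → ∃ j, y = Sum.inr j := by
    rintro (⟨i, b⟩ | j) h
    · simp [ι'] at h
    · exact ⟨j, rfl⟩
  have hsub : Subsingleton (Fin (n % 2)) := by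
    apply Fin.subsingleton_iff_le_one.mpr
    omega
  refine ⟨e.trans (ι'.trans e.symm), ?_, ?_⟩
  · intro y
    simp [hι']
  · intro a b ha hb
    have ha' : ι' (e a) = e a := by
      have := congrArg e ha
      simpa using this
    have hb' : ι' (e b) = e b := by
      have := congrArg e hb
      simpa using this
    obtain ⟨i, hi⟩ := hfix _ ha'
    obtain ⟨j, hj⟩ := hfix _ hb'
    apply e.injective
    rw [hi, hj, Subsingleton.elim i j]

/-- The combinatorial data of a `2`-group containing a full matching of transpositions. -/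
structure Pairing (T : Subgroup (Perm X)) (p : Perm X) : Prop where
  pgrp : IsPGroup 2 T
  invol : ∀ y, p (p y) = y
  fix : ∀ a b, p a = a → p b = b → a = b
  mem : ∀ y, p y ≠ y → swap y (p y) ∈ T

theorem exists_pairing (T : Sylow 2 (Perm X)) : ∃ p : Perm X, Pairing (T : Subgroup (Perm X)) p := by
  obtain ⟨ι, h1, h2⟩ := exists_involution (X := X)
  let E : Subgroup (Perm X) :=
    { carrier := {g | ∀ y, g y = y ∨ g y = ι y}
      mul_mem' := by
        intro g h hg hh y
        show g (h y) = y ∨ g (h y) = ι y
        rcases hh y with h3 | h3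
        · rw [h3]; exact hg y
        · rw [h3]
          rcases hg (ι y) with h4 | h4
          · right; exact h4
          · left; rw [h4, h1]
      one_mem' := fun y => Or.inl rfl
      inv_mem' := by
        intro g hg y
        show g⁻¹ y = y ∨ g⁻¹ y = ι y
        rcases hg y with h3 | h3
        · left; rw [Perm.inv_eq_iff_eq]; exact h3.symm
        · right
          rw [Perm.inv_eq_iff_eq]
          rcases hg (ι y) with h4 | h4
          · have h5 : ι y = y := g.injective (h4.trans h3.symm)
            rw [h4, h5]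
          · rw [h4, h1] }
  have hE : IsPGroup 2 E := by
    rintro ⟨g, hg⟩
    refine ⟨1, ?_⟩
    apply Subtype.ext
    ext y
    have hg' : ∀ y, g y = y ∨ g y = ι y := hg
    show (g ^ 2 ^ 1) y = y
    rw [pow_one, pow_two]
    show g (g y) = y
    rcases hg' y with h3 | h3
    · rw [h3, h3]
    · rw [h3]
      rcases hg' (ι y) with h4 | h4
      · have h5 : ι y = y := g.injective (h4.trans h3.symm)
        rw [h4, h5]
      · rw [h4, h1]
  obtain ⟨T₀, hT₀⟩ := hE.exists_le_sylow
  obtain ⟨g, hg⟩ := MulAction.exists_smul_eq (Perm X) T₀ T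
  refine ⟨g * ι * g⁻¹, T.isPGroup', ?_, ?_, ?_⟩
  · intro y
    simp [h1]
  · intro a b ha hb
    have ha' : ι (g⁻¹ a) = g⁻¹ a := by
      have := congrArg (⇑g⁻¹) ha
      simpa using this
    have hb' : ι (g⁻¹ b) = g⁻¹ b := by
      have := congrArg (⇑g⁻¹) hb
      simpa using this
    exact g⁻¹.injective (h2 _ _ ha' hb')
  · intro y hy
    set z := g⁻¹ y with hz
    have hyz : y = g z := by simp [hz]
    have h3 : swap z (ι z) ∈ E := by
      intro w
      by_cases hw : w = z
      · subst hw; right; simp
      by_cases hw' : w = ι z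
      · subst hw'; right; rw [swap_apply_right, h1]
      · left; exact swap_apply_of_ne_of_ne hw hw'
    have h4 : swap y ((g * ι * g⁻¹) y) = g * swap z (ι z) * g⁻¹ := by
      rw [conj_swap, hyz]
      simp
    rw [h4, ← hg, Basic.coe_smul_sylow]
    exact ⟨_, hT₀ h3, rfl⟩

namespace Pairing

variable {T : Subgroup (Perm X)} {p : Perm X} (hp : Pairing T p)
include hp

theorem eq_of_swap_mem {a b : X} (hab : a ≠ b) (h : swap a b ∈ T) : p a ≠ a ∧ b = p a := by
  have h1 : p a ≠ a := by
    intro ha
    have hb : p b ≠ b := fun hb => hab (hp.fix a b ha hb)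
    have h2 := hp.mem b hb
    have h3 : swap b a ∈ T := by rwa [swap_comm]
    have h4 := swap_unique hp.pgrp (Ne.symm hb) hab.symm h2 h3
    have h5 : p a = b := by rw [← h4]; exact hp.invol b
    exact hab (ha.symm.trans h5)
  exact ⟨h1, swap_unique hp.pgrp hab (Ne.symm h1) h (hp.mem a h1)⟩

theorem comm_of_mem_normalizer {g : Perm X} (hg : g ∈ normalizer (T : Set (Perm X))) (y : X) :
    p (g y) = g (p y) := by
  have key : ∀ g ∈ normalizer (T : Set (Perm X)), ∀ y, p y ≠ y → p (g y) = g (p y) := by
    intro g hg y hy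
    have h1 := (mem_normalizer_iff.mp hg _).mp (hp.mem y hy)
    rw [conj_swap] at h1
    have h2 : g y ≠ g (p y) := fun h => hy (g.injective h).symm
    exact ((hp.eq_of_swap_mem h2 h1).2).symm
  by_cases hy : p y = y
  · rw [hy]
    by_contra h
    have h3 := key g⁻¹ (inv_mem hg) (g y) h
    have h3' : g⁻¹ (g y) = y := by simp
    rw [h3', hy, Perm.eq_inv_iff_eq] at h3
    exact h h3.symm
  · exact key g hg y hy

/-- An element of `T` fixes each uncovered point. -/
theorem fixed_of_fixed {g : Perm X} (hg : g ∈ normalizer (T : Set (Perm X))) {y : X}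
    (hy : p y = y) : g y = y :=
  hp.fix _ _ (by rw [hp.comm_of_mem_normalizer hg, hy]) hy

end Pairing

/-- The transpositions of `T`. -/
abbrev W (T : Subgroup (Perm X)) : Type u := {τ : Perm X // τ ∈ T ∧ τ.IsSwap}

theorem isSwap_conj {τ : Perm X} (h : τ.IsSwap) (g : Perm X) : (g * τ * g⁻¹).IsSwap := by
  obtain ⟨a, b, hab, rfl⟩ := h
  exact ⟨g a, g b, fun h => hab (g.injective h), conj_swap g a b⟩

/-- Conjugation action of the normalizer on the transpositions of `T`. -/
@[reducible] def conjAct (T : Subgroup (Perm X)) : MulAction (normalizer (T : Set (Perm X))) (W T) where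
  smul g τ := ⟨g.1 * τ.1 * g.1⁻¹, (mem_normalizer_iff.mp g.2 _).mp τ.2.1, isSwap_conj τ.2.2 g.1⟩
  one_smul τ := Subtype.ext (by
    show (1 : Perm X) * τ.1 * (1 : Perm X)⁻¹ = τ.1
    simp)
  mul_smul g h τ := Subtype.ext (by
    show (g.1 * h.1) * τ.1 * (g.1 * h.1)⁻¹ = g.1 * (h.1 * τ.1 * h.1⁻¹) * g.1⁻¹
    group)

/-- The permutation representation on `W`. -/
noncomputable def phi (T : Subgroup (Perm X)) : normalizer (T : Set (Perm X)) →* Perm (W T) :=
  letI := conjAct T
  MulAction.toPermHom _ _

theorem phi_apply_coe (T : Subgroup (Perm X)) (g : normalizer (T : Set (Perm X))) (τ : W T) :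
    ((phi T g τ : W T) : Perm X) = g.1 * τ.1 * g.1⁻¹ := rfl

/-- The restriction to `T`. -/
noncomputable def psi (T : Subgroup (Perm X)) : T →* Perm (W T) :=
  (phi T).comp (Subgroup.inclusion le_normalizer)

theorem psi_apply_coe (T : Subgroup (Perm X)) (g : T) (τ : W T) :
    ((psi T g τ : W T) : Perm X) = g.1 * τ.1 * g.1⁻¹ := rfl

section count

variable {T : Subgroup (Perm X)} {p : Perm X} (hp : Pairing T p)
include hp

/-- An element of the kernel moves points only inside their pair. -/
theorem ker_apply {t : T} (ht : t ∈ (psi T).ker) {y : X} (hy : p y ≠ y) :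
    t.1 y = y ∨ t.1 y = p y := by
  have h1 : psi T t = 1 := ht
  have h2 : ((psi T t ⟨swap y (p y), hp.mem y hy, y, p y, Ne.symm hy, rfl⟩ : W T) : Perm X)
      = swap y (p y) := by
    rw [h1]; rfl
  rw [psi_apply_coe] at h2
  simp only [conj_swap] at h2
  have h3 : t.1 y ≠ t.1 (p y) := fun h => hy (t.1.injective h).symm
  have h4 : swap y (p y) (t.1 y) = t.1 (p y) := by
    rw [← h2, swap_apply_left]
  by_contra h5
  have h6 : t.1 y ≠ y := fun h => h5 (Or.inl h)
  have h7 : t.1 y ≠ p y := fun h => h5 (Or.inr h)
  rw [swap_apply_of_ne_of_ne h6 h7] at h4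
  exact h3 h4

theorem card_ker_le : Nat.card (psi T).ker ≤ 2 ^ Nat.card (W T) := by
  classical
  have hT : T ≤ normalizer (T : Set (Perm X)) := le_normalizer
  let c : (psi T).ker → (W T → Bool) := fun t τ => decide (∀ y, τ.1 y ≠ y → t.1.1 y = y)
  have hc : Function.Injective c := by
    intro t t' htt
    apply Subtype.ext
    apply Subtype.ext
    ext y
    by_cases hy : p y = y
    · rw [hp.fixed_of_fixed (hT t.1.2) hy, hp.fixed_of_fixed (hT t'.1.2) hy]
    have key : ∀ t : T, (∀ z, swap y (p y) z ≠ z → t.1 z = z) ↔ t.1 y = y := by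
      intro t
      constructor
      · intro h
        apply h
        rw [swap_apply_left]
        exact hy
      · intro h z hz
        by_cases hzy : z = y
        · rw [hzy, h]
        by_cases hzy' : z = p y
        · rw [hzy']
          have := hp.comm_of_mem_normalizer (hT t.2) y
          rw [h] at this
          exact this.symm
        · exact absurd (swap_apply_of_ne_of_ne hzy hzy') hz
    have h1 := congrFun htt ⟨swap y (p y), hp.mem y hy, y, p y, Ne.symm hy, rfl⟩
    simp only [c, decide_eq_decide] at h1
    rw [key t.1, key t'.1] at h1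
    by_cases h2 : t.1.1 y = y
    · rw [h2, h1.mp h2]
    · have h3 : t'.1.1 y ≠ y := fun h => h2 (h1.mpr h)
      rw [(ker_apply hp t.2 hy).resolve_left h2, (ker_apply hp t'.2 hy).resolve_left h3]
  have h1 := Nat.card_le_card_of_injective c hc
  have h2 : Nat.card (W T → Bool) = 2 ^ Nat.card (W T) := by
    rw [Nat.card_fun]; simp
  rwa [h2] at h1

/-- Counting: `|X| = 2 |W| + e` with `e ≤ 1`. -/
theorem exists_card_eq : ∃ e, e < 2 ∧ Fintype.card X = 2 * Nat.card (W T) + e := by
  classical
  refine ⟨(Finset.univ.filter fun y => p y = y).card, ?_, ?_⟩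
  · have : (Finset.univ.filter fun y => p y = y).card ≤ 1 := by
      rw [Finset.card_le_one]
      intro a ha b hb
      exact hp.fix a b (Finset.mem_filter.mp ha).2 (Finset.mem_filter.mp hb).2
    omega
  · have h1 := Finset.card_filter_add_card_filter_not (s := (Finset.univ : Finset X)) (fun y => p y = y)
    rw [Finset.card_univ] at h1
    set t : Finset (Perm X) := Finset.univ.filter (fun τ : Perm X => τ ∈ T ∧ τ.IsSwap) with ht
    have h2 : Nat.card (W T) = t.card := by
      rw [Nat.card_eq_fintype_card]
      exact Fintype.card_of_subtype t (by simp [ht])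
    have h3 : (Finset.univ.filter fun y => ¬ p y = y).card = 2 * t.card := by
      rw [Finset.card_eq_sum_card_fiberwise (f := fun y => swap y (p y)) (t := t)]
      · have h4 : ∀ τ ∈ t, ((Finset.univ.filter fun y => ¬ p y = y).filter
            (fun y => swap y (p y) = τ)).card = 2 := by
          intro τ hτ
          obtain ⟨hτT, a, b, hab, rfl⟩ := (Finset.mem_filter.mp hτ).2
          obtain ⟨ha, rfl⟩ := hp.eq_of_swap_mem hab hτT
          have h5 : (Finset.univ.filter fun y => ¬ p y = y).filter
              (fun y => swap y (p y) = swap a (p a)) = {a, p a} := by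
            ext y
            simp only [Finset.mem_filter, Finset.mem_univ, true_and, Finset.mem_insert,
              Finset.mem_singleton]
            constructor
            · rintro ⟨hy, hy'⟩
              by_contra h
              have h6 : y ≠ a := fun h' => h (Or.inl h')
              have h7 : y ≠ p a := fun h' => h (Or.inr h')
              have h8 := swap_apply_of_ne_of_ne h6 h7
              rw [← hy', swap_apply_left] at h8
              exact hy h8
            · rintro (rfl | rfl)
              · exact ⟨ha, rfl⟩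
              · refine ⟨?_, ?_⟩
                · rw [hp.invol]; exact hab.symm ∘ Eq.symm |> fun _ => fun h => ha h.symm
                · rw [hp.invol, swap_comm]
          rw [h5, Finset.card_pair (Ne.symm ha)]
        rw [Finset.sum_congr rfl h4]
        simp [mul_comm]
      · intro y hy
        have hy' : p y ≠ y := by simpa using hy
        simp only [ht, Finset.coe_filter, Finset.mem_univ, true_and, Set.mem_ofPred_eq]
        exact ⟨hp.mem y hy', y, p y, Ne.symm hy', rfl⟩
    rw [h2, ← h3]
    omega

end count

theorem fact_two (m e : ℕ) (he : e < 2) :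
    ((2 * m + e).factorial).factorization 2 = m + (m.factorial).factorization 2 := by
  haveI : Fact (Nat.Prime 2) := ⟨Nat.prime_two⟩
  rw [Nat.factorization_def _ Nat.prime_two, Nat.factorization_def _ Nat.prime_two,
    padicValNat_factorial_mul_add _ he, padicValNat_factorial_mul]
  omega

/-- The image of `T` in `Perm W` is a Sylow subgroup. -/
theorem exists_sylow_range (T : Sylow 2 (Perm X)) {p : Perm X}
    (hp : Pairing (T : Subgroup (Perm X)) p) :
    ∃ Q : Sylow 2 (Perm (W (T : Subgroup (Perm X)))),
      (Q : Subgroup (Perm (W (T : Subgroup (Perm X))))) = (psi (T : Subgroup (Perm X))).range := by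
  classical
  have hR : IsPGroup 2 (psi (T : Subgroup (Perm X))).range :=
    hp.pgrp.of_surjective _ (psi (T : Subgroup (Perm X))).rangeRestrict_surjective
  obtain ⟨Q, hQ⟩ := hR.exists_le_sylow
  refine ⟨Q, ?_⟩
  obtain ⟨e, he, hcard⟩ := exists_card_eq hp
  have h1 : Nat.card Q = 2 ^ (Nat.card (W (T : Subgroup (Perm X)))).factorial.factorization 2 := by
    have := Q.card_eq_multiplicity
    rwa [Nat.card_perm] at this
  have h2 : Nat.card T = 2 ^ (Fintype.card X).factorial.factorization 2 := by
    have := T.card_eq_multiplicity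
    rwa [Nat.card_perm, Nat.card_eq_fintype_card (α := X)] at this
  have h3 := Subgroup.card_mul_index (psi (T : Subgroup (Perm X))).ker
  rw [Subgroup.index_ker] at h3
  have h4 := card_ker_le hp
  rw [hcard, fact_two _ _ he, pow_add] at h2
  have h5 : Nat.card Q ≤ Nat.card (psi (T : Subgroup (Perm X))).range := by
    rw [h1]
    have h6 : 2 ^ Nat.card (W (T : Subgroup (Perm X))) *
        2 ^ (Nat.card (W (T : Subgroup (Perm X)))).factorial.factorization 2 ≤
        2 ^ Nat.card (W (T : Subgroup (Perm X))) * Nat.card (psi (T : Subgroup (Perm X))).range := by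
      rw [← h2]
      have h7 : Nat.card T = Nat.card (T : Subgroup (Perm X)) := rfl
      rw [← h3]
      exact Nat.mul_le_mul_right _ h4
    exact Nat.le_of_mul_le_mul_left h6 (by positivity)
  exact (Subgroup.eq_of_le_of_card_ge hQ h5).symm

/-- **A Sylow `2`-subgroup of a symmetric group has no nontrivial normalizing element of odd order.** -/
theorem eq_one_of_odd_of_mem_normalizer (n : ℕ) : ∀ (X : Type u) [Fintype X] [DecidableEq X],
    Fintype.card X = n → ∀ (T : Sylow 2 (Perm X)) (x : Perm X), Odd (orderOf x) →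
      x ∈ normalizer ((T : Subgroup (Perm X)) : Set (Perm X)) → x = 1 := by
  induction n using Nat.strong_induction_on with
  | _ n IH =>
  intro X _ _ hn T x hodd hx
  obtain ⟨p, hp⟩ := exists_pairing T
  obtain ⟨e, he, hcard⟩ := exists_card_eq hp
  have hbar : phi (T : Subgroup (Perm X)) ⟨x, hx⟩ = 1 := by
    by_cases hm : Nat.card (W (T : Subgroup (Perm X))) < n
    · classical
      letI : Fintype (W (T : Subgroup (Perm X))) := Fintype.ofFinite _
      obtain ⟨Q, hQ⟩ := exists_sylow_range T hp
      refine IH _ hm (W (T : Subgroup (Perm X))) Nat.card_eq_fintype_card.symm Q _ ?_ ?_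
      · refine Odd.of_dvd_nat hodd ?_
        refine (orderOf_map_dvd _ _).trans ?_
        rw [Subgroup.orderOf_mk]
      · apply Cfsg.Agent.Lib.HSubgroup.Basic.mem_normalizer_of_conj_le
        intro r hr
        have hr' : r ∈ (Q : Subgroup (Perm (W (T : Subgroup (Perm X))))) := hr
        rw [hQ] at hr'
        obtain ⟨t, rfl⟩ := hr'
        show _ ∈ (Q : Subgroup (Perm (W (T : Subgroup (Perm X)))))
        rw [hQ]
        have ht : x * t.1 * x⁻¹ ∈ (T : Subgroup (Perm X)) := (mem_normalizer_iff.mp hx _).mp t.2
        refine ⟨⟨_, ht⟩, ?_⟩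
        ext τ
        rfl
    · have hm0 : Nat.card (W (T : Subgroup (Perm X))) = 0 := by omega
      have : IsEmpty (W (T : Subgroup (Perm X))) := by
        rw [← Finite.card_eq_zero_iff]; exact hm0
      ext τ
      exact this.elim τ
  have hpair : ∀ y, p y ≠ y → x y = y ∨ x y = p y := by
    intro y hy
    have h2 : ((phi (T : Subgroup (Perm X)) ⟨x, hx⟩
        ⟨swap y (p y), hp.mem y hy, y, p y, Ne.symm hy, rfl⟩ : W (T : Subgroup (Perm X))) : Perm X)
        = swap y (p y) := by
      rw [hbar]; rfl
    rw [phi_apply_coe] at h2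
    simp only [conj_swap] at h2
    have h3 : x y ≠ x (p y) := fun h => hy (x.injective h).symm
    have h4 : swap y (p y) (x y) = x (p y) := by
      rw [← h2, swap_apply_left]
    by_contra h5
    have h6 : x y ≠ y := fun h => h5 (Or.inl h)
    have h7 : x y ≠ p y := fun h => h5 (Or.inr h)
    rw [swap_apply_of_ne_of_ne h6 h7] at h4
    exact h3 h4
  ext y
  show x y = y
  by_cases hy : p y = y
  · exact hp.fixed_of_fixed hx hy
  rcases hpair y hy with h | h
  · exact h
  exfalso
  have h1 : x (x y) = y := by
    rw [h, ← hp.comm_of_mem_normalizer hx, h, hp.invol]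
  obtain ⟨j, hj⟩ := hodd
  have h2 : x ^ (2 * (j + 1)) = x := by
    have h3 : x ^ (2 * j + 1) = 1 := by rw [← hj]; exact pow_orderOf_eq_one x
    calc x ^ (2 * (j + 1)) = x ^ (2 * j + 1) * x := by rw [← pow_succ]; ring_nf
      _ = x := by rw [h3, one_mul]
  have h3 : (x ^ 2) y = y := by
    rw [pow_two]; exact h1
  have h4 : ((x ^ 2) ^ (j + 1)) y = y := Equiv.Perm.pow_apply_eq_self_of_apply_eq_self h3 _
  rw [← pow_mul, h2, h] at h4
  exact hy h4

end Cfsg.Agent.Lib.PronormAlt.SymSylow
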