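import Mathlib
import Cfsg.Agent.Lib.HSubgroup.Basic
import Cfsg.Agent.Lib.PronormAlt.SymSylow

/-!
# Sylow `2`-subgroups of `A_n`, `n ≥ 6`, are self-normalizing
-/

set_option autoImplicit false
set_option linter.unusedSectionVars false

namespace Cfsg.Agent.Lib.PronormAlt.AltSylow

open Equiv Equiv.Perm Subgroup
open Cfsg.Agent.Lib.PronormAlt.SymSylow

universe u

variable {X : Type u} [Fintype X] [DecidableEq X]

section
variable {T : Subgroup (Perm X)} {p : Perm X} (hp : Pairing T p) (h6 : 6 ≤ Fintype.card X)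
include hp h6

/-- Outside four points there is a further covered point. -/
theorem exists_covered (u w : X) : ∃ y, p y ≠ y ∧ y ≠ u ∧ y ≠ p u ∧ y ≠ w ∧ y ≠ p w := by
  classical
  have hF : (Finset.univ.filter fun y => p y = y).card ≤ 1 := by
    rw [Finset.card_le_one]
    intro a ha b hb
    exact hp.fix a b (Finset.mem_filter.mp ha).2 (Finset.mem_filter.mp hb).2
  set Z : Finset X := {u, p u, w, p w} ∪ Finset.univ.filter fun y => p y = y with hZ
  have hZc : Z.card < (Finset.univ : Finset X).card := by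
    rw [Finset.card_univ]
    have h1 : ({u, p u, w, p w} : Finset X).card ≤ 4 := Finset.card_le_four
    have h2 : Z.card ≤ _ := Finset.card_union_le ({u, p u, w, p w} : Finset X)
      (Finset.univ.filter fun y => p y = y)
    omega
  obtain ⟨y, -, hy⟩ := Finset.exists_mem_notMem_of_card_lt_card hZc
  simp only [hZ, Finset.mem_union, Finset.mem_insert, Finset.mem_singleton, Finset.mem_filter,
    Finset.mem_univ, true_and, not_or] at hy
  exact ⟨y, hy.2, hy.1.1, hy.1.2.1, hy.1.2.2.1, hy.1.2.2.2⟩

theorem ne_p {a y : X} (h : a ≠ p y) : y ≠ p a := fun h' => h (by rw [h', hp.invol])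

theorem swap_mul_swap_mem {a b : X} (ha : p a ≠ a) (hb : p b ≠ b) :
    swap a (p a) * swap b (p b) ∈ T ⊓ alternatingGroup X := by
  refine ⟨T.mul_mem (hp.mem a ha) (hp.mem b hb), ?_⟩
  show _ ∈ alternatingGroup X
  rw [Equiv.Perm.mem_alternatingGroup, map_mul, sign_swap (Ne.symm ha), sign_swap (Ne.symm hb)]
  rfl

/-- Covered points are moved by the even part of `T`. -/
theorem exists_moves {y : X} (hy : p y ≠ y) : ∃ s ∈ T ⊓ alternatingGroup X, s y ≠ y := by
  obtain ⟨a, ha, h1, h2, -, -⟩ := exists_covered hp h6 y y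
  refine ⟨_, swap_mul_swap_mem hp h6 hy ha, ?_⟩
  rw [Perm.mul_apply, swap_apply_of_ne_of_ne h1.symm (ne_p hp h6 h2), swap_apply_left]
  exact hy

theorem exists_fix_moves {u w : X} (hw : p w ≠ w) (h1 : w ≠ u) (h2 : w ≠ p u) :
    ∃ s ∈ T ⊓ alternatingGroup X, s u = u ∧ s w ≠ w := by
  obtain ⟨a, ha, h3, h4, h5, h6'⟩ := exists_covered hp h6 u w
  refine ⟨_, swap_mul_swap_mem hp h6 hw ha, ?_, ?_⟩
  · rw [Perm.mul_apply, swap_apply_of_ne_of_ne h3.symm (ne_p hp h6 h4)]
    apply swap_apply_of_ne_of_ne h1.symm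
    intro h7
    apply h2
    rw [h7, hp.invol]
  · rw [Perm.mul_apply, swap_apply_of_ne_of_ne h5.symm (ne_p hp h6 h6'), swap_apply_left]
    exact hw

/-- An element normalizing the even part of `T` commutes with `p` on covered points. -/
theorem comm_of_normalizes {x : Perm X}
    (hx : x ∈ normalizer ((T ⊓ alternatingGroup X : Subgroup (Perm X)) : Set (Perm X)))
    {u : X} (hu : p u ≠ u) : p (x u) = x (p u) := by
  have hT : T ≤ normalizer (T : Set (Perm X)) := le_normalizer
  have hmv : ∀ {z : X}, p z ≠ z → p (x z) ≠ x z := by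
    intro z hz hfix
    obtain ⟨s, hs, hsz⟩ := exists_moves hp h6 hz
    have h1 := (mem_normalizer_iff.mp hx _).mp hs
    have h2 := hp.fixed_of_fixed (hT h1.1) hfix
    apply hsz
    apply x.injective
    simpa using h2
  by_contra hne
  have h2 : x (p u) ≠ x u := fun h => hu (x.injective h)
  have h3 : p (x (p u)) ≠ x (p u) := by
    apply hmv
    rw [hp.invol]
    exact hu.symm
  obtain ⟨s', hs', h4, h5⟩ := exists_fix_moves hp h6 (u := x u) h3 h2 (Ne.symm hne)
  have h6' := (mem_normalizer_iff''.mp hx _).mp hs'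
  have h7 : x⁻¹ * s' * x ∈ normalizer (T : Set (Perm X)) := hT h6'.1
  have h8 := hp.comm_of_mem_normalizer h7 u
  have h9 : (x⁻¹ * s' * x) u = u := by
    simp [h4]
  rw [h9] at h8
  apply h5
  have h10 : (x⁻¹ * s' * x) (p u) = p u := h8.symm
  have h11 : x⁻¹ (s' (x (p u))) = p u := by simpa using h10
  rw [Perm.inv_eq_iff_eq] at h11
  exact h11

end

/-- The main statement on odd elements, in `Perm X`. -/
theorem eq_one_of_normalizes (h6 : 6 ≤ Fintype.card X) (T : Sylow 2 (Perm X)) {x : Perm X}
    (hodd : Odd (orderOf x))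
    (hx : x ∈ normalizer (((T : Subgroup (Perm X)) ⊓ alternatingGroup X : Subgroup (Perm X)) :
      Set (Perm X))) : x = 1 := by
  obtain ⟨p, hp⟩ := exists_pairing T
  refine eq_one_of_odd_of_mem_normalizer _ X rfl T x hodd ?_
  obtain ⟨u, hu, -⟩ := exists_covered hp h6 (Classical.choice (by
    rw [← Fintype.card_pos_iff]; omega)) (Classical.choice (by
    rw [← Fintype.card_pos_iff]; omega))
  have hτ : x * swap u (p u) * x⁻¹ ∈ (T : Subgroup (Perm X)) := by
    rw [conj_swap, ← comm_of_normalizes hp h6 hx hu]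
    exact hp.mem _ (fun h => hu (by
      have := comm_of_normalizes hp h6 hx hu
      rw [h] at this
      exact (x.injective this).symm))
  apply Cfsg.Agent.Lib.HSubgroup.Basic.mem_normalizer_of_conj_le
  intro t ht
  by_cases hs : sign t = 1
  · exact ((mem_normalizer_iff.mp hx t).mp ⟨ht, hs⟩).1
  · have h1 : t * swap u (p u) ∈ (T : Subgroup (Perm X)) ⊓ alternatingGroup X := by
      refine ⟨(T : Subgroup (Perm X)).mul_mem ht (hp.mem u hu), ?_⟩
      show _ ∈ alternatingGroup X
      rw [Equiv.Perm.mem_alternatingGroup, map_mul, sign_swap (Ne.symm hu)]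
      rcases Int.units_eq_one_or (sign t) with h | h
      · exact absurd h hs
      · rw [h]; rfl
    have h2 := ((mem_normalizer_iff.mp hx _).mp h1).1
    have h3 : x * t * x⁻¹ = (x * (t * swap u (p u)) * x⁻¹) * (x * swap u (p u) * x⁻¹) := by
      have h4 : swap u (p u) * swap u (p u) = 1 := swap_mul_self _ _
      calc x * t * x⁻¹ = x * (t * (swap u (p u) * swap u (p u))) * x⁻¹ := by rw [h4, mul_one]
        _ = _ := by group
    rw [h3]
    exact (T : Subgroup (Perm X)).mul_mem h2 hτ

/-- Sylow `2`-subgroups of the alternating group of degree at least six are self-normalizing. -/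
theorem normalizer_le (h6 : 6 ≤ Fintype.card X) (S : Sylow 2 (alternatingGroup X)) :
    normalizer ((S : Subgroup (alternatingGroup X)) : Set (alternatingGroup X)) ≤ S := by
  intro g hg
  have hS' : IsPGroup 2 ((S : Subgroup (alternatingGroup X)).map (alternatingGroup X).subtype) :=
    S.isPGroup'.map _
  obtain ⟨T, hT⟩ := hS'.exists_le_sylow
  -- the even part of `T` is `S`
  have hTS : ∀ y : alternatingGroup X, y.1 ∈ (T : Subgroup (Perm X)) → y ∈ S := by
    have h1 : IsPGroup 2 ((T : Subgroup (Perm X)).comap (alternatingGroup X).subtype) :=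
      T.isPGroup'.comap_of_injective _ (alternatingGroup X).subtype_injective
    have h2 : (S : Subgroup (alternatingGroup X)) ≤
        (T : Subgroup (Perm X)).comap (alternatingGroup X).subtype :=
      Subgroup.map_le_iff_le_comap.mp hT
    have h3 := S.is_maximal' h1 h2
    intro y hy
    have h4 : y ∈ (T : Subgroup (Perm X)).comap (alternatingGroup X).subtype := hy
    rw [h3] at h4
    exact h4
  -- odd part
  obtain ⟨a, b, hb, hab⟩ := Nat.exists_eq_two_pow_mul_odd (orderOf_pos g).ne'
  have hh : g ^ (2 ^ a) = 1 := by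
    set h := g ^ (2 ^ a) with hh_def
    have hord : orderOf h = b := by
      rw [hh_def, orderOf_pow' _ (by positivity), hab, Nat.gcd_eq_right (Dvd.intro _ rfl)]
      exact Nat.mul_div_cancel_left _ (by positivity)
    have hhN : h ∈ normalizer ((S : Subgroup (alternatingGroup X)) : Set (alternatingGroup X)) :=
      pow_mem hg _
    have hx : (h : Perm X) = 1 := by
      apply eq_one_of_normalizes h6 T
      · rw [Subgroup.orderOf_coe, hord]; exact hb
      · apply Cfsg.Agent.Lib.HSubgroup.Basic.mem_normalizer_of_conj_le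
        rintro y ⟨hy1, hy2⟩
        have h1 : (⟨y, hy2⟩ : alternatingGroup X) ∈ S := hTS _ hy1
        have h2 := (mem_normalizer_iff.mp hhN _).mp h1
        constructor
        · exact hT ⟨_, h2, rfl⟩
        · exact (h * ⟨y, hy2⟩ * h⁻¹).2
    exact Subtype.ext hx
  have hzp : IsPGroup 2 (zpowers g) := by
    rintro ⟨z, i, rfl⟩
    refine ⟨a, ?_⟩
    apply Subtype.ext
    show ((g ^ i) ^ (2 ^ a)) = 1
    rw [← zpow_natCast, ← zpow_mul, mul_comm, zpow_mul, zpow_natCast, hh, one_zpow]
  have h5 := hzp.inf_normalizer_sylow S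
  have h6' : g ∈ zpowers g ⊓ normalizer (S : Set (alternatingGroup X)) :=
    ⟨mem_zpowers g, hg⟩
  rw [h5] at h6'
  exact h6'.2

end Cfsg.Agent.Lib.PronormAlt.AltSylow
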