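import Mathlib
import Cfsg.Agent.Lib.PronormAlt.Basic

/-!
# Odd-index subgroups of `A₅` are pronormal
-/

set_option autoImplicit false
set_option linter.style.haveILetI false

namespace Cfsg.Agent.Lib.PronormAlt.Five

open Equiv Equiv.Perm Subgroup
open Cfsg.Agent.Lib.PronormAlt.Basic

theorem no_commuting : ∀ t c : Perm (Fin 5), t * t = 1 → c * c * c = 1 → t * c = c * t →
    t ≠ 1 → c ≠ 1 → sign t ≠ 1 := by decide +kernel

theorem index_normalCore_dvd {G : Type*} [Group G] [Finite G] (H : Subgroup G) :
    H.normalCore.index ∣ (H.index).factorial := by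
  rw [Subgroup.normalCore_eq_ker, Subgroup.index_ker]
  have := Subgroup.card_subgroup_dvd_card (MulAction.toPermHom G (G ⧸ H)).range
  rwa [Nat.card_perm] at this

abbrev A5 := alternatingGroup (Fin 5)

theorem card_A5 : Nat.card A5 = 60 := by
  have h := two_mul_nat_card_alternatingGroup (α := Fin 5)
  rw [Nat.card_perm] at h
  have h2 : (Nat.card (Fin 5)).factorial = 120 := by simp; decide
  rw [h2] at h
  show Nat.card (alternatingGroup (Fin 5)) = 60
  omega

theorem factorization_sixty : (60 : ℕ).factorization 2 = 2 := by
  have h1 : 2 ≤ (60 : ℕ).factorization 2 :=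
    (Nat.Prime.pow_dvd_iff_le_factorization Nat.prime_two (by norm_num)).mp (by norm_num)
  have h2 : ¬ 3 ≤ (60 : ℕ).factorization 2 := fun h =>
    absurd ((Nat.Prime.pow_dvd_iff_le_factorization Nat.prime_two (by norm_num)).mpr h) (by norm_num)
  omega

theorem card_sylow (S : Sylow 2 A5) : Nat.card S = 4 := by
  have := S.card_eq_multiplicity
  rw [card_A5, factorization_sixty] at this
  simpa using this

/-- There is no subgroup of index `3`. -/
theorem index_ne_three (H : Subgroup A5) : H.index ≠ 3 := by
  intro h
  have h1 := index_normalCore_dvd H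
  rw [h] at h1
  rcases IsSimpleGroup.eq_bot_or_eq_top_of_normal H.normalCore H.normalCore_normal with h2 | h2
  · rw [h2, Subgroup.index_bot, card_A5] at h1
    revert h1; decide
  · have h3 : H = ⊤ := top_le_iff.mp (h2 ▸ H.normalCore_le)
    rw [h3, Subgroup.index_top] at h
    omega

/-- A subgroup of order `12` containing the Sylow subgroup `S` normalizes it. -/
theorem le_normalizer_of_card_twelve (H : Subgroup A5) (S : Sylow 2 A5) (hS : (S : Subgroup A5) ≤ H)
    (hH : Nat.card H = 12) : H ≤ normalizer (S : Set A5) := by
  classical
  set S₀ : Subgroup H := (S : Subgroup A5).subgroupOf H with hS₀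
  have hS₀c : Nat.card S₀ = 4 := by
    rw [hS₀, Nat.card_congr (Subgroup.subgroupOfEquivOfLe hS).toEquiv]
    exact card_sylow S
  have hidx : S₀.index = 3 := by
    have := S₀.card_mul_index
    rw [hS₀c, hH] at this
    omega
  set C : Subgroup H := S₀.normalCore with hC
  have hCS : C ≤ S₀ := S₀.normalCore_le
  have h1 : C.index ∣ 6 := by
    have := index_normalCore_dvd S₀
    rw [hidx] at this
    exact this
  have h2 : Nat.card C ∣ 4 := by
    rw [← hS₀c]
    exact Subgroup.card_dvd_of_le hCS
  have h3 := C.card_mul_index
  rw [hH] at h3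
  have h4 : Nat.card C = 2 ∨ Nat.card C = 4 := by
    have h5 : C.index ≤ 6 := Nat.le_of_dvd (by norm_num) h1
    have h6 : Nat.card C ≤ 4 := Nat.le_of_dvd (by norm_num) h2
    have h7 : Nat.card C ≠ 0 := Nat.card_pos.ne'
    interval_cases hc : Nat.card C <;> first | omega | (exfalso; revert h2; decide) | skip
    all_goals (first | omega | (exfalso; have : C.index = 12 := by omega
                                omega))
  rcases h4 with h4 | h4
  · -- central involution commuting with an element of order three
    exfalso
    obtain ⟨c, hc⟩ := exists_prime_orderOf_dvd_card' (G := H) 3 (by rw [hH]; norm_num)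
    haveI : Fact (Nat.Prime 3) := ⟨Nat.prime_three⟩
    obtain ⟨x, y, hxy, huniv⟩ := Nat.card_eq_two_iff.mp h4
    have hone : ∀ z : C, z = x ∨ z = y := by
      intro z
      have : z ∈ ({x, y} : Set C) := huniv ▸ Set.mem_univ z
      simpa using this
    obtain ⟨t, ht⟩ : ∃ t : C, t ≠ 1 := by
      rcases hone 1 with h | h
      · exact ⟨y, fun h' => hxy (h.symm.trans h'.symm)⟩
      · exact ⟨x, fun h' => hxy (h'.trans h)⟩
    have hcent : ∀ z : C, z ≠ 1 → z = t := by
      intro z hz
      rcases hone 1 with h | h <;> rcases hone z with h' | h' <;> rcases hone t with h'' | h''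
      all_goals first
        | exact h'.trans h''.symm
        | exact absurd (h'.trans h.symm) hz
        | exact absurd (h''.trans h.symm) ht
    have hconj : (c * t.1 * c⁻¹) ∈ C := (S₀.normalCore_normal).conj_mem _ t.2 c
    have hct : c * t.1 * c⁻¹ = t.1 := by
      have h5 := hcent ⟨_, hconj⟩ (by
        intro h6
        have h7 : c * t.1 * c⁻¹ = 1 := congrArg Subtype.val h6
        apply ht
        apply Subtype.ext
        have h8 : t.1 = c⁻¹ * (c * t.1 * c⁻¹) * c := by group
        rw [h8, h7]
        simp)
      exact congrArg Subtype.val h5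
    have htt : t ^ 2 = 1 := by
      have := pow_card_eq_one' (x := t)
      rwa [h4] at this
    have hcc : c ^ 3 = 1 := by
      rw [← hc]; exact pow_orderOf_eq_one c
    have h5 := no_commuting ((t.1 : A5) : Perm (Fin 5)) ((c : A5) : Perm (Fin 5))
      (by
        have h6 : t.1 * t.1 = 1 := by
          have := congrArg Subtype.val htt
          rw [pow_two] at this
          exact this
        have := congrArg (fun z : H => ((z : A5) : Perm (Fin 5))) h6
        exact this)
      (by
        have h6 : c * c * c = 1 := by
          rw [← hcc, pow_three, mul_assoc]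
        have := congrArg (fun z : H => ((z : A5) : Perm (Fin 5))) h6
        exact this)
      (by
        have h6 : t.1 * c = c * t.1 := by
          rw [mul_inv_eq_iff_eq_mul] at hct
          exact hct.symm
        have := congrArg (fun z : H => ((z : A5) : Perm (Fin 5))) h6
        exact this)
      (by
        intro h6
        apply ht
        apply Subtype.ext
        apply Subtype.ext
        apply Subtype.ext
        exact h6)
      (by
        intro h6
        have h7 : c = 1 := by
          apply Subtype.ext
          apply Subtype.ext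
          exact h6
        rw [h7, orderOf_one] at hc
        omega)
    exact h5 (t.1 : A5).2
  · have h5 : C = S₀ := Subgroup.eq_of_le_of_card_ge hCS (by rw [h4, hS₀c])
    haveI : S₀.Normal := h5 ▸ S₀.normalCore_normal
    exact Subgroup.le_normalizer_of_normal_subgroupOf hS

/-- **Odd-index subgroups of `A₅` are pronormal.** -/
theorem isPronormal_five (H : Subgroup A5) (hH : Odd H.index) : Cfsg.IsPronormal H := by
  obtain ⟨S, hS⟩ := exists_sylow_le_of_coprime_index (p := 2) H (Nat.coprime_two_left.mpr hH)
  have h1 := H.card_mul_index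
  rw [card_A5] at h1
  have h2 : 4 ∣ Nat.card H := by
    rw [← card_sylow S]
    exact Subgroup.card_dvd_of_le hS
  obtain ⟨k, hk⟩ := h2
  rw [hk] at h1
  have h3 : k * H.index = 15 := by
    nlinarith
  have h4 : H.index ∣ 15 := Dvd.intro_left _ h3
  have h5 : H.index ≤ 15 := Nat.le_of_dvd (by norm_num) h4
  have h6 : H.index = 1 ∨ H.index = 3 ∨ H.index = 5 ∨ H.index = 15 := by
    interval_cases hi : H.index <;> first | omega | (exfalso; revert h4; decide)
  rcases h6 with h6 | h6 | h6 | h6
  · rw [Subgroup.index_eq_one] at h6
    exact isPronormal_of_normalizer_le S H hS (by rw [h6]; exact le_top)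
  · exact absurd h6 (index_ne_three H)
  · rw [h6] at h3
    have hk3 : k = 3 := by omega
    have hc12 : Nat.card H = 12 := by rw [hk, hk3]
    have hN := le_normalizer_of_card_twelve H S hS hc12
    apply isPronormal_of_normalizer_le S H hS
    set N := normalizer (S : Set A5) with hNdef
    have h7 : Nat.card H ∣ Nat.card N := Subgroup.card_dvd_of_le hN
    have h8 : Nat.card N ∣ 60 := by
      rw [← card_A5]; exact Subgroup.card_subgroup_dvd_card N
    rw [hc12] at h7
    obtain ⟨a, ha⟩ := h7
    have h9 : a ∣ 5 := by
      rw [ha] at h8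
      have : 12 * a ∣ 12 * 5 := h8
      exact Nat.dvd_of_mul_dvd_mul_left (by norm_num) this
    rcases (Nat.dvd_prime Nat.prime_five).mp h9 with h10 | h10
    · have h11 : H = N := Subgroup.eq_of_le_of_card_ge hN (by rw [ha, h10, hc12])
      rw [← h11]
    · exfalso
      have h11 : N = ⊤ := by
        apply Subgroup.eq_top_of_card_eq
        rw [ha, h10, card_A5]
      have h12 : (S : Subgroup A5).Normal := by
        rw [← Subgroup.normalizer_eq_top_iff]
        exact h11
      rcases IsSimpleGroup.eq_bot_or_eq_top_of_normal _ h12 with h13 | h13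
      · have := card_sylow S
        have h14 : Nat.card (S : Subgroup A5) = 4 := this
        rw [h13, Subgroup.card_bot] at h14
        omega
      · have := card_sylow S
        have h14 : Nat.card (S : Subgroup A5) = 4 := this
        rw [h13, Subgroup.card_top, card_A5] at h14
        omega
  · rw [h6] at h3
    have hk1 : k = 1 := by omega
    have hc4 : Nat.card H = 4 := by rw [hk, hk1]
    have h7 : (S : Subgroup A5) = H :=
      Subgroup.eq_of_le_of_card_ge hS (by rw [hc4, card_sylow S])
    rw [← h7]
    exact isPronormal_sylow S

end Cfsg.Agent.Lib.PronormAlt.Five
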